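import Cfsg.Agent.Fusion.GenSimple
import Cfsg.Agent.Hall.StructBatch
import Cfsg.Agent.PGroup.Extraspecial
import Mathlib.GroupTheory.SpecificGroups.Alternating.Simple

set_option autoImplicit false

/-!
A group with one class of involutions and involution centraliser `2^{1+4}_-:A₅` with Sylow groups of
order 128 has a simple 2-fusion system.
-/

namespace CfsgLib.J3Fusion

open Subgroup
open scoped commutatorElement

/-- An extraspecial group of order 32 without eight-groups is generated by involutions. -/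
theorem involutions_generate {E : Type*} [Group E] [Finite E] (hE : Cfsg.IsExtraspecial 2 E)
    (hc : Nat.card E = 32) (hno : ∀ A : Subgroup E, Cfsg.IsElementaryAbelian 2 A → Nat.card A ≤ 2 ^ 2) :
    closure {x : E | x ^ 2 = 1} = ⊤ := by
  classical
  haveI : Fact (Nat.Prime 2) := ⟨Nat.prime_two⟩
  haveI : Group.IsNilpotent E := hE.1.1.isNilpotent
  by_contra hW
  obtain ⟨M, hM, hWM⟩ := (eq_top_or_exists_le_coatom _).resolve_left hW
  haveI : M.Normal := NormalizerCondition.normal_of_coatom M Group.normalizerCondition_of_isNilpotent hM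
  obtain ⟨a, ha⟩ : ∃ a, a ∉ M := by
    by_contra h
    push Not at h
    exact hM.1 ((eq_top_iff' M).2 h)
  have hidx : M.index = 2 := by
    have h1 : M ≤ (Subgroup.center E) ⊔ M := le_sup_right
    obtain ⟨x, hx⟩ : ∃ x : E ⧸ M, orderOf x = 2 := by
      obtain ⟨k, hk⟩ := IsPGroup.iff_card.mp (hE.1.1.to_quotient M)
      refine exists_prime_orderOf_dvd_card' 2 (hk ▸ dvd_pow_self 2 ?_)
      rintro rfl
      exact hM.1 (index_eq_one.mp (by rw [index, hk, pow_zero]))
    have hle : M ≤ (zpowers x).comap (QuotientGroup.mk' M) := fun y hy => by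
      rw [mem_comap, QuotientGroup.mk'_apply, (QuotientGroup.eq_one_iff y).mpr hy]
      exact one_mem _
    rcases hM.le_iff.mp hle with h | h
    · have h2 : zpowers x = ⊤ :=
        comap_injective (QuotientGroup.mk'_surjective M) (h.trans (comap_top _).symm)
      rw [index, ← Subgroup.card_top, ← h2, Nat.card_zpowers, hx]
    · have h2 : zpowers x = ⊥ :=
        comap_injective (QuotientGroup.mk'_surjective M)
          (h.trans (by rw [MonoidHom.comap_bot, QuotientGroup.ker_mk']))
      rw [zpowers_eq_bot] at h2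
      rw [h2, orderOf_one] at hx
      omega
  have hsq : ∀ x, x ∉ M → x ^ 2 = a ^ 2 := by
    intro x hx
    have h1 : ∀ y, y ∉ M → (⟨y ^ 2, Extraspecial.pow_mem_center hE y⟩ : center E) ≠ 1 := fun y hy h => by
      exact hy (hWM (subset_closure (congrArg Subtype.val h)))
    obtain ⟨z, hz⟩ := (Nat.card_eq_two_iff' (1 : center E)).1 hE.2
    exact congrArg Subtype.val ((hz.2 _ (h1 x hx)).trans (hz.2 _ (h1 a ha)).symm)
  have hflip : ∀ m ∈ M, m * a * m = a := by
    intro m hm
    have h : a * m ∉ M := fun h => ha ((Subgroup.mul_mem_cancel_right M hm).1 h)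
    have := hsq _ h
    rw [pow_two, pow_two, mul_assoc a m] at this
    have h2 := mul_left_cancel this
    rwa [← mul_assoc] at h2
  have hcomm : ∀ m ∈ M, ∀ n ∈ M, m * n = n * m := by
    intro m hm n hn
    have h1 := hflip _ (mul_mem hm hn)
    have h2 : m * n * a * (n * m) = a :=
      calc m * n * a * (n * m) = m * (n * a * n) * m := by group
        _ = a := by rw [hflip n hn, hflip m hm]
    exact mul_left_cancel (h1.trans h2.symm)
  let f : M →* E :=
    { toFun := fun m => (m : E) ^ 2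
      map_one' := by simp
      map_mul' := fun m n => by
        push_cast
        exact (Commute.mul_pow (hcomm _ m.2 _ n.2) 2) }
  have hr : Nat.card f.range ≤ 2 := by
    refine (Subgroup.card_le_of_le (K := center E) ?_).trans hE.2.le
    rintro _ ⟨m, rfl⟩
    exact Extraspecial.pow_mem_center hE (m : E)
  have hk : Nat.card (f.ker.map M.subtype) ≤ 2 ^ 2 := by
    refine hno _ ⟨⟨⟨?_⟩⟩, ?_⟩
    · rintro ⟨_, x, -, rfl⟩ ⟨_, y, -, rfl⟩
      exact Subtype.ext (hcomm _ x.2 _ y.2)
    · rintro _ ⟨x, hx, rfl⟩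
      exact hx
  rw [← Nat.card_congr (equivMapOfInjective _ _ M.subtype_injective).toEquiv] at hk
  have h3 := f.ker.index_mul_card
  rw [index_ker] at h3
  have h4 : Nat.card M * 2 = 32 := by rw [← hidx, M.card_mul_index, hc]
  nlinarith

theorem a5_pow_four : ∀ x : alternatingGroup (Fin 5), orderOf x ∣ 128 → x ^ 2 = 1 := by
  intro x hx
  have h8 : x ^ 8 = 1 ∨ ¬ x ^ 8 = 1 := em _
  have hd : ∀ y : alternatingGroup (Fin 5), y ^ 8 = 1 → y ^ 2 = 1 := by decide +kernel
  refine hd x ?_
  have h120 : orderOf x ∣ 120 := by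
    refine (orderOf_dvd_natCard x).trans ?_
    rw [Nat.card_eq_fintype_card, card_alternatingGroup]
    norm_num [Fintype.card_fin, Nat.factorial]
  exact orderOf_dvd_iff_pow_eq_one.1 ((Nat.dvd_gcd hx h120).trans (by norm_num))

variable {G C : Type*} [Group G] [Finite G] [Group C] [Finite C]

/-- Simplicity of the fusion system. -/
theorem isSimple_fusion (hone : ∀ x y : G, orderOf x = 2 → orderOf y = 2 → IsConj x y)
    (ι : C →* G) (hι : Function.Injective ι) (u : C) (hu : orderOf u = 2)
    (hcent : ∀ g : G, g * ι u = ι u * g ↔ g ∈ ι.range)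
    (Q : Subgroup C) [Q.Normal] (hQ : Cfsg.IsExtraspecial 2 Q) (hQc : Nat.card Q = 32)
    (hno : ∀ A : Subgroup Q, Cfsg.IsElementaryAbelian 2 A → Nat.card A ≤ 2 ^ 2)
    (H : Subgroup C) (hH : Q.IsComplement' H) (e : C ⧸ Q ≃* alternatingGroup (Fin 5))
    (S : Sylow 2 G) (hS128 : Nat.card (S : Subgroup G) = 128) (hSC : (S : Subgroup G) ≤ ι.range) :
    (Cfsg.groupFusionSystem (S : Subgroup G)).IsSimple 2 := by
  classical
  haveI : Fact (Nat.Prime 2) := ⟨Nat.prime_two⟩
  haveI : IsSimpleGroup (alternatingGroup (Fin 5)) := alternatingGroup.isSimpleGroup (by simp)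
  let π : C →* alternatingGroup (Fin 5) := e.toMonoidHom.comp (QuotientGroup.mk' Q)
  have hπ : Function.Surjective π := e.surjective.comp (QuotientGroup.mk'_surjective Q)
  have hker : π.ker = Q := by
    rw [MonoidHom.ker_comp_of_injective _ _ e.injective, QuotientGroup.ker_mk']
  have hnab : ¬ ∀ x y : alternatingGroup (Fin 5), x * y = y * x := by decide +kernel
  have hnorm : ∀ N : Subgroup C, N.Normal → N ≤ Q ∨ N ⊔ Q = ⊤ := by
    intro N hN
    rcases IsSimpleGroup.eq_bot_or_eq_top_of_normal (N.map π) (hN.map π hπ) with h | h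
    · left
      rw [← hker]
      exact (N.map_eq_bot_iff).1 h
    · right
      rw [← hker, ← comap_map_eq, h, comap_top]
  have hucen : u ∈ center C := mem_center_iff.2 fun c => hι (by
    rw [map_mul, map_mul]; exact (hcent _).2 ⟨c, rfl⟩)
  have huQ : u ∈ Q := by
    rcases hnorm (center C) inferInstance with h | h
    · exact h hucen
    · exfalso
      apply hnab
      intro x y
      obtain ⟨a, rfl⟩ := hπ x
      obtain ⟨b, rfl⟩ := hπ y
      obtain ⟨a', ha', q, hq, rfl⟩ := mem_sup_of_normal_right.1 (h.symm ▸ mem_top a : a ∈ center C ⊔ Q)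
      have hq' : π q = 1 := by rw [← MonoidHom.mem_ker, hker]; exact hq
      rw [map_mul, hq', mul_one, ← map_mul, ← map_mul, mem_center_iff.1 ha' b]
  have hu1 : u ≠ 1 := fun h => by rw [h, orderOf_one] at hu; omega
  have hu2 : u ^ 2 = 1 := hu ▸ pow_orderOf_eq_one u
  have hZ : ∀ x : Q, x ∈ center Q → (x : C) = 1 ∨ (x : C) = u := by
    intro x hx
    obtain ⟨z, hz⟩ := (Nat.card_eq_two_iff' (1 : center Q)).1 hQ.2
    have huc : (⟨u, huQ⟩ : Q) ∈ center Q :=
      mem_center_iff.2 fun q => Subtype.ext (mem_center_iff.1 hucen q)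
    rcases eq_or_ne (⟨x, hx⟩ : center Q) 1 with h | h
    · left; exact congrArg (fun w : center Q => ((w : Q) : C)) h
    · right
      have h2 : (⟨_, huc⟩ : center Q) ≠ 1 := fun h => hu1 (congrArg (fun w : center Q => ((w : Q) : C)) h)
      exact congrArg (fun w : center Q => ((w : Q) : C)) ((hz.2 _ h).trans (hz.2 _ h2).symm)
  have hgenQ : ∀ W : Subgroup C, (∀ q ∈ Q, q ^ 2 = 1 → q ∈ W) → Q ≤ W := by
    intro W hW q hq
    have h : closure {x : Q | x ^ 2 = 1} ≤ W.subgroupOf Q := (closure_le _).2 fun x hx =>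
      hW _ x.2 (congrArg Subtype.val hx)
    exact h ((involutions_generate hQ hQc hno).symm ▸ mem_top (⟨q, hq⟩ : Q))
  have hsqπ : ∀ x : C, x ^ 128 = 1 → x ^ 2 ∈ Q := by
    intro x hx
    rw [← hker, MonoidHom.mem_ker, map_pow]
    exact a5_pow_four _ (orderOf_dvd_of_pow_eq_one (by rw [← map_pow, hx, map_one]))
  have hQ4 : ∀ q ∈ Q, q ^ 128 = 1 := by
    intro q hq
    have h := Extraspecial.pow_sq_eq_one hQ (⟨q, hq⟩ : Q)
    have h' : q ^ (2 ^ 2) = 1 := congrArg Subtype.val h
    rw [show (128 : ℕ) = 2 ^ 2 * 32 by norm_num, pow_mul, h', one_pow]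
  -- the centraliser of `Q`
  have hK : centralizer (Q : Set C) ≤ Q := by
    rcases hnorm (centralizer (Q : Set C)) inferInstance with h | h
    · exact h
    exfalso
    have hsq : ∀ x : C, x ^ 128 = 1 → x ^ 2 = 1 ∨ x ^ 2 = u := by
      intro x hx
      obtain ⟨k, hk, q, hq, hkq⟩ := mem_sup_of_normal_right.1
        (h.symm ▸ mem_top x : x ∈ centralizer (Q : Set C) ⊔ Q)
      have hkcomm : Commute k q := (mem_centralizer_iff.1 hk q hq).symm
      have hk2 : k ^ 2 ∈ Q := by
        have h1 := hsqπ x hx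
        rw [← hkq, hkcomm.mul_pow] at h1
        exact (Subgroup.mul_mem_cancel_right Q (pow_mem hq 2)).1 h1
      have hxc : (⟨x ^ 2, hsqπ x hx⟩ : Q) ∈ center Q := by
        have e1 : (⟨x ^ 2, hsqπ x hx⟩ : Q) = ⟨k ^ 2, hk2⟩ * ⟨q, hq⟩ ^ 2 :=
          Subtype.ext (by push_cast; rw [← hkq, hkcomm.mul_pow])
        rw [e1]
        refine mul_mem (mem_center_iff.2 fun r => Subtype.ext ?_) (Extraspecial.pow_mem_center hQ _)
        exact mem_centralizer_iff.1 (pow_mem hk 2) r r.2
      exact hZ _ hxc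
    obtain ⟨v, hv2, hv1, hvu⟩ : ∃ v : Q, v ^ 2 = 1 ∧ (v : C) ≠ 1 ∧ (v : C) ≠ u := by
      by_contra hn
      push Not at hn
      have h5 : Q ≤ zpowers u := hgenQ _ fun q hq hq2 => by
        rcases eq_or_ne q 1 with rfl | h
        · exact one_mem _
        · have h' : q = u := hn ⟨q, hq⟩ (Subtype.ext hq2) h
          rw [h']
          exact mem_zpowers u
      have := Subgroup.card_le_of_le h5
      rw [hQc, Nat.card_zpowers, hu] at this
      omega
    have hv2' : (v : C) ^ 2 = 1 := congrArg Subtype.val hv2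
    obtain ⟨x, hx, hx2⟩ : ∃ x : Q, (x : C) * v = v * x ∧ (x : C) ^ 2 = u := by
      by_contra hn
      push Not at hn
      let φ : Q →* Q :=
        { toFun := fun m => ⁅m, v⁆
          map_one' := commutatorElement_one_left _
          map_mul' := fun m n => by
            have hc := mem_center_iff.1 (Extraspecial.commutator_mem_center hQ n v)
            calc ⁅m * n, v⁆ = m * ⁅n, v⁆ * (v * m⁻¹ * v⁻¹) := by simp only [commutatorElement_def]; group
              _ = ⁅m, v⁆ * ⁅n, v⁆ := by
                rw [mul_assoc, ← hc, commutatorElement_def m v]; group }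
      have hr : Nat.card φ.range ≤ 2 := by
        refine (Subgroup.card_le_of_le (K := center Q) ?_).trans hQ.2.le
        rintro _ ⟨m, rfl⟩
        exact Extraspecial.commutator_mem_center hQ m v
      have hexp : ∀ m ∈ φ.ker, m ^ 2 = 1 := by
        intro m hm
        have hc : m * v = v * m := commutatorElement_eq_one_iff_mul_comm.1 hm
        rcases hZ _ (Extraspecial.pow_mem_center hQ m) with h | h
        · exact Subtype.ext h
        · exact absurd h (hn m (congrArg Subtype.val hc))
      have hel : Cfsg.IsElementaryAbelian 2 φ.ker := by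
        refine ⟨⟨⟨fun a b => Subtype.ext ?_⟩⟩, hexp⟩
        have h1 := hexp _ (mul_mem a.2 b.2)
        have ha := hexp _ a.2
        have hb := hexp _ b.2
        rw [pow_two] at h1 ha hb
        calc (a : Q) * b = (a : Q) * ((a : Q) * b * ((a : Q) * b)) * b := by rw [h1, mul_one]
          _ = ((a : Q) * a) * b * a * ((b : Q) * b) := by group
          _ = b * a := by rw [ha, hb]; group
      have h3 := φ.ker.index_mul_card
      rw [index_ker, hQc] at h3
      have h4 := hno _ hel
      nlinarith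
    have hv : orderOf (ι (v : C)) = 2 := by
      rw [orderOf_injective _ hι]
      exact orderOf_eq_prime hv2' hv1
    obtain ⟨g, hg⟩ := isConj_iff.1 (hone (ι u) (ι (v : C)) ((orderOf_injective _ hι u).trans hu) hv)
    have hxv : ι (x : C) * ι (v : C) = ι (v : C) * ι (x : C) := by rw [← map_mul, hx, map_mul]
    obtain ⟨y, hy⟩ := (hcent (g⁻¹ * ι (x : C) * g)).1 (by
      rw [← hg] at hxv
      calc g⁻¹ * ι (x : C) * g * ι u = g⁻¹ * (ι (x : C) * (g * ι u * g⁻¹)) * g := by group
        _ = g⁻¹ * ((g * ι u * g⁻¹) * ι (x : C)) * g := by rw [hxv]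
        _ = ι u * (g⁻¹ * ι (x : C) * g) := by group)
    have hxy : ι (x : C) = g * ι y * g⁻¹ := by rw [hy]; group
    have hy128 : y ^ 128 = 1 := hι (by
      rw [map_pow, hy, map_one]
      have : g⁻¹ * ι (x : C) * g = g⁻¹ * ι (x : C) * (g⁻¹)⁻¹ := by rw [inv_inv]
      rw [this, conj_pow, ← map_pow, hQ4 _ x.2, map_one]
      group)
    have h1 : ι ((x : C) ^ 2) = g * ι (y ^ 2) * g⁻¹ := by rw [map_pow, map_pow, hxy, conj_pow]
    rw [hx2] at h1
    rcases hsq y hy128 with h | h
    · rw [h, map_one, mul_one, mul_inv_cancel] at h1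
      exact hu1 (hι (h1.trans (map_one ι).symm))
    · rw [h, hg] at h1
      exact hvu (hι h1).symm
  have hcG : centralizer ((Q.map ι : Subgroup G) : Set G) ≤ Q.map ι := by
    intro g hg
    have h := mem_centralizer_iff.1 hg _ (mem_map_of_mem ι huQ)
    obtain ⟨c, rfl⟩ := (hcent g).1 h.symm
    refine mem_map_of_mem ι (hK (mem_centralizer_iff.2 fun q hq => hι ?_))
    rw [map_mul, map_mul]
    exact mem_centralizer_iff.1 hg _ (mem_map_of_mem ι hq)
  -- the Sylow subgroup inside
  set P : Subgroup C := (S : Subgroup G).comap ι with hP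
  have hPS : P.map ι = (S : Subgroup G) := by rw [hP, map_comap_eq, inf_eq_right.2 hSC]
  have hPc : Nat.card P = 128 := by
    rw [Nat.card_congr (equivMapOfInjective P ι hι).toEquiv, hPS, hS128]
  have hPp : IsPGroup 2 P := IsPGroup.of_card (n := 7) (by rw [hPc]; norm_num)
  have hCc : Nat.card C = 1920 := by
    rw [← Q.card_mul_index, hQc, index, Nat.card_congr e.toEquiv, Nat.card_eq_fintype_card,
      card_alternatingGroup]
    norm_num [Fintype.card_fin, Nat.factorial]
  let PS : Sylow 2 C := Sylow.ofCard P (by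
    rw [hPc, hCc]
    have : (1920 : ℕ).factorization 2 = 7 := by
      rw [show (1920 : ℕ) = 2 ^ 7 * 15 by norm_num, Nat.factorization_mul (by norm_num) (by norm_num),
        Nat.factorization_pow]
      simp [Nat.prime_two.factorization, Nat.factorization_eq_zero_of_not_dvd]
    rw [this]
    norm_num)
  have hQP : Q ≤ P := by
    have h1 : IsPGroup 2 (P ⊔ Q : Subgroup C) :=
      hPp.to_sup_of_normal_right (IsPGroup.of_card (n := 5) (by rw [hQc]; norm_num))
    have h2 : P ⊔ Q = P := PS.is_maximal' h1 le_sup_left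
    exact h2 ▸ le_sup_right
  have hP128 : ∀ x ∈ P, x ^ 128 = 1 := fun x hx => by
    have h := pow_card_eq_one' (x := (⟨x, hx⟩ : P))
    rw [hPc] at h
    exact congrArg Subtype.val h
  have hPcen : ∀ x ∈ P, (∀ y ∈ P, x * y = y * x) → x = 1 ∨ x = u := by
    intro x _ hc
    have hxQ : x ∈ Q := hK (mem_centralizer_iff.2 fun q hq => (hc q (hQP hq)).symm)
    exact hZ ⟨x, hxQ⟩ (mem_center_iff.2 fun q => Subtype.ext (hc q (hQP q.2)).symm)
  have hgenP : ∀ W : Subgroup C, (∀ p ∈ P, p ^ 2 = 1 → p ∈ W) → P ≤ W := by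
    intro W hW x hx
    have hQW : Q ≤ W := hgenQ W fun q hq => hW q (hQP hq)
    obtain ⟨⟨q, h⟩, hqh, -⟩ := hH.existsUnique x
    simp only at hqh
    have hhP : (h : C) ∈ P := (Subgroup.mul_mem_cancel_left P (hQP q.2)).1 (hqh ▸ hx)
    have hh2 : (h : C) ^ 2 = 1 := by
      have : (h : C) ^ 2 ∈ Q ⊓ H := ⟨hsqπ _ (hP128 _ hhP), pow_mem h.2 2⟩
      rwa [hH.isCompl.inf_eq_bot, mem_bot] at this
    rw [← hqh]
    exact mul_mem (hQW q.2) (hW _ hhP hh2)
  have hiuS : ι u ∈ (S : Subgroup G) := hPS ▸ mem_map_of_mem ι (hQP huQ)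
  refine CfsgLib.Fusion.isSimple_of_generators 2 S ?_ ?_ ?_
  · intro h
    rw [h, Subgroup.card_bot] at hS128
    omega
  · intro T hT
    rcases eq_or_ne T ⊥ with h | hne
    · exact Or.inl h
    right
    have hclo : ∀ x ∈ T, ∀ g : G, g * x * g⁻¹ ∈ (S : Subgroup G) → g * x * g⁻¹ ∈ T := by
      intro x hx g hgS
      have hle : zpowers x ≤ T := zpowers_le.2 hx
      exact hT.2 (zpowers x) hle ((MulAut.conj g).toMonoidHom.comp (zpowers x).subtype)
        ⟨hle.trans hT.1, fun y => by
            obtain ⟨i, hi⟩ := mem_zpowers_iff.1 y.2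
            show g * (y : G) * g⁻¹ ∈ _
            rw [← hi, ← conj_zpow]
            exact zpow_mem hgS i,
          g, fun y => rfl⟩ ⟨x, mem_zpowers x⟩
    haveI hn : (T.subgroupOf (S : Subgroup G)).Normal := ⟨fun x hx g => by
      rw [mem_subgroupOf] at hx ⊢
      push_cast
      exact hclo _ hx _ (mul_mem (mul_mem g.2 (hT.1 hx)) (inv_mem g.2))⟩
    haveI : Group.IsNilpotent (S : Subgroup G) := S.isPGroup'.isNilpotent
    have hTS : T.subgroupOf (S : Subgroup G) ≠ ⊥ := by
      rw [Ne, subgroupOf_eq_bot]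
      exact fun h => hne (h.eq_bot_of_le hT.1)
    have huT : ι u ∈ T := by
      obtain ⟨⟨x, hx⟩, hx1⟩ := ne_bot_iff_exists_ne_one.1
        (CfsgLib.Hall.Struct.inf_center_ne_bot (T.subgroupOf (S : Subgroup G)) hTS)
      obtain ⟨hxT, hxc⟩ := mem_inf.1 hx
      obtain ⟨p, hp, hpx⟩ := (mem_map (f := ι)).1 (hPS.symm ▸ x.2 : (x : G) ∈ P.map ι)
      rcases hPcen p hp (fun y hy => hι (by
          have := congrArg Subtype.val
            (mem_center_iff.1 hxc ⟨ι y, hPS ▸ mem_map_of_mem ι hy⟩)
          rw [map_mul, map_mul, hpx]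
          exact this.symm)) with h | h
      · exfalso
        rw [h, map_one] at hpx
        exact hx1 (Subtype.ext (Subtype.ext hpx.symm))
      · rw [h] at hpx
        rw [hpx]
        exact hxT
    refine le_antisymm hT.1 ?_
    have hW : P ≤ T.comap ι := hgenP _ fun p hp hp2 => by
      rw [mem_comap]
      rcases eq_or_ne p 1 with rfl | hp1
      · rw [map_one]; exact one_mem _
      obtain ⟨g, hg⟩ := isConj_iff.1 (hone (ι u) (ι p) ((orderOf_injective _ hι u).trans hu)
        ((orderOf_injective _ hι p).trans (orderOf_eq_prime hp2 hp1)))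
      rw [← hg]
      exact hclo _ huT g (hg.symm ▸ hPS ▸ mem_map_of_mem ι hp)
    rw [← hPS, map_le_iff_le_comap]
    exact hW
  · intro g hg
    have hgC : g ∈ ι.range := by
      obtain ⟨p, hp, hpx⟩ := (mem_map (f := ι)).1
        (hPS.symm ▸ (mem_normalizer_iff.1 hg _).1 hiuS : g * ι u * g⁻¹ ∈ P.map ι)
      have hc : ∀ y ∈ P, p * y = y * p := by
        intro y hy
        obtain ⟨z, hz, hzy⟩ := (mem_map (f := ι)).1
          (hPS.symm ▸ (mem_normalizer_iff.1 hg (g⁻¹ * ι y * g)).2
            (by rw [show g * (g⁻¹ * ι y * g) * g⁻¹ = ι y by group]; exact hPS ▸ mem_map_of_mem ι hy) :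
              g⁻¹ * ι y * g ∈ P.map ι)
        have h1 : ι u * ι z = ι z * ι u := by rw [← map_mul, ← map_mul, mem_center_iff.1 hucen z]
        apply hι
        rw [map_mul, map_mul, hpx]
        calc g * ι u * g⁻¹ * ι y = g * (ι u * (g⁻¹ * ι y * g)) * g⁻¹ := by group
          _ = g * ((g⁻¹ * ι y * g) * ι u) * g⁻¹ := by rw [← hzy, h1]
          _ = ι y * (g * ι u * g⁻¹) := by group
      rcases hPcen p hp hc with h | h
      · exfalso
        rw [h, map_one, eq_comm, conj_eq_one_iff] at hpx
        exact hu1 (hι (hpx.trans (map_one ι).symm))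
      · rw [h] at hpx
        exact (hcent g).1 (mul_inv_eq_iff_eq_mul.1 hpx.symm)
    have hR : Q.map ι ≤ (S : Subgroup G) ∧
        (S : Subgroup G) ≤ normalizer ((Q.map ι : Subgroup G) : Set G) ∧
        centralizer ((Q.map ι : Subgroup G) : Set G) ≤ Q.map ι :=
      ⟨hPS ▸ Subgroup.map_mono hQP,
        hSC.trans (by
          have := le_normalizer_map (H := Q) ι
          rwa [normalizer_eq_top, ← MonoidHom.range_eq_map] at this), hcG⟩
    refine mem_iSup_of_mem (Q.map ι) (mem_iSup_of_mem hR ⟨hg, ?_⟩)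
    set K : Subgroup C := closure {x : C | ∃ k : ℕ, orderOf x = 2 ^ k} with hKdef
    haveI : K.Normal := by
      refine ⟨fun n hn c => ?_⟩
      have : K.map (MulAut.conj c).toMonoidHom ≤ K := by
        rw [hKdef, MonoidHom.map_closure, closure_le]
        rintro _ ⟨y, ⟨k, hk⟩, rfl⟩
        exact subset_closure ⟨k, by rw [← hk]; exact MulEquiv.orderOf_eq (MulAut.conj c) y⟩
      exact this ⟨n, hn, rfl⟩
    have hPK : P ≤ K := fun x hx => by
      obtain ⟨k, hk⟩ := (IsPGroup.iff_orderOf.1 hPp) ⟨x, hx⟩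
      exact subset_closure ⟨k, by rw [← hk]; exact Subgroup.orderOf_coe (⟨x, hx⟩ : P)⟩
    have hKtop : K = ⊤ := by
      rcases hnorm K inferInstance with h | h
      · exfalso
        have := Subgroup.card_le_of_le (hPK.trans h)
        rw [hPc, hQc] at this
        omega
      · rwa [sup_eq_left.2 (hQP.trans hPK)] at h
    obtain ⟨c, rfl⟩ := hgC
    have h2 := mem_map_of_mem ι (hKtop.symm ▸ mem_top c : c ∈ K)
    rw [hKdef, MonoidHom.map_closure] at h2
    refine closure_mono ?_ h2
    rintro _ ⟨y, ⟨k, hk⟩, rfl⟩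
    refine ⟨?_, k, by rw [orderOf_injective _ hι, hk]⟩
    have := le_normalizer_map (H := Q) ι
    rw [normalizer_eq_top, ← MonoidHom.range_eq_map] at this
    exact this ⟨y, rfl⟩

end CfsgLib.J3Fusion
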