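import Cfsg.Agent.J3Fusion.Main

set_option autoImplicit false

/-!
The fusion system from the shape of the involution centraliser in a model.
-/

namespace CfsgLib.J3Fusion

open Subgroup
open scoped Pointwise

theorem isSimple_of_data {G J : Type*} [Group G] [Finite G] [Group J] [Finite J] (e : G ≃* J)
    (hcard : Nat.card J = 50232960)
    (hdata : (∀ x y : J, orderOf x = 2 → orderOf y = 2 → IsConj x y) ∧ ∃ t : J, orderOf t = 2 ∧
      ∃ (Q : Subgroup ↥(Subgroup.centralizer ({t} : Set J))) (_ : Q.Normal), Cfsg.IsExtraspecial 2 Q ∧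
        Nat.card Q = 32 ∧ (∀ E : Subgroup Q, Cfsg.IsElementaryAbelian 2 E → Nat.card E ≤ 2 ^ 2) ∧
        (∃ H : Subgroup ↥(Subgroup.centralizer ({t} : Set J)), Q.IsComplement' H) ∧
        Nonempty (↥(Subgroup.centralizer ({t} : Set J)) ⧸ Q ≃* ↥(alternatingGroup (Fin 5))))
    (S : Sylow 2 G) : (Cfsg.groupFusionSystem (S : Subgroup G)).IsSimple 2 := by
  haveI : Fact (Nat.Prime 2) := ⟨Nat.prime_two⟩
  obtain ⟨hone, t, ht, Q, hQn, hQ, hQc, hno, ⟨H, hH⟩, ⟨eA⟩⟩ := hdata
  have hG : (Nat.card G).factorization 2 = 7 := by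
    rw [Nat.card_congr e.toEquiv, hcard, show (50232960 : ℕ) = 2 ^ 7 * 392445 by norm_num,
      Nat.factorization_mul (by norm_num) (by norm_num), Nat.factorization_pow]
    simp [Nat.prime_two.factorization, Nat.factorization_eq_zero_of_not_dvd]
  have hC : Nat.card ↥(Subgroup.centralizer ({t} : Set J)) = 1920 := by
    rw [← Q.card_mul_index, hQc, Subgroup.index, Nat.card_congr eA.toEquiv, Nat.card_eq_fintype_card,
      card_alternatingGroup]
    norm_num [Fintype.card_fin, Nat.factorial]
  let P : Sylow 2 ↥(Subgroup.centralizer ({t} : Set J)) := default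
  have hP : Nat.card (P : Subgroup ↥(Subgroup.centralizer ({t} : Set J))) = 128 := by
    rw [P.card_eq_multiplicity, hC, show (1920 : ℕ) = 2 ^ 7 * 15 by norm_num,
      Nat.factorization_mul (by norm_num) (by norm_num), Nat.factorization_pow]
    simp [Nat.prime_two.factorization, Nat.factorization_eq_zero_of_not_dvd]
  let P' : Subgroup G := (P : Subgroup ↥(Subgroup.centralizer ({t} : Set J))).map
    (e.symm.toMonoidHom.comp (Subgroup.subtype _))
  have hP' : Nat.card P' = 2 ^ (Nat.card G).factorization 2 := by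
    rw [hG, ← Nat.card_congr (Subgroup.equivMapOfInjective _ _
      (by exact e.symm.injective.comp Subtype.val_injective)).toEquiv, hP]
    norm_num
  obtain ⟨c, hc⟩ := MulAction.exists_smul_eq G (Sylow.ofCard P' hP') S
  have hc' : MulAut.conj c • P' = (S : Subgroup G) := congrArg (fun R : Sylow 2 G => (R : Subgroup G)) hc
  let f : J ≃* G := e.symm.trans (MulAut.conj c)
  refine isSimple_fusion ?_ (f.toMonoidHom.comp (Subgroup.subtype _))
    (by exact f.injective.comp Subtype.val_injective) ⟨t, Subgroup.mem_centralizer_singleton_iff.2 rfl⟩ ?_ ?_ Q hQ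
    hQc hno H hH eA S ?_ ?_
  · intro x y hx hy
    obtain ⟨d, hd⟩ := isConj_iff.1 (hone (e x) (e y) (by rw [MulEquiv.orderOf_eq, hx])
      (by rw [MulEquiv.orderOf_eq, hy]))
    refine isConj_iff.2 ⟨e.symm d, e.injective ?_⟩
    simpa using hd
  · rwa [Subgroup.orderOf_mk]
  · intro g
    obtain ⟨j, rfl⟩ := f.surjective g
    show f j * f t = f t * f j ↔ _
    rw [← map_mul, ← map_mul, f.injective.eq_iff]
    constructor
    · intro h
      exact ⟨⟨j, Subgroup.mem_centralizer_singleton_iff.2 h⟩, rfl⟩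
    · rintro ⟨⟨k, hk⟩, hkj⟩
      obtain rfl : k = j := f.injective hkj
      exact Subgroup.mem_centralizer_singleton_iff.1 hk
  · rw [S.card_eq_multiplicity, hG]
    norm_num
  · intro x hx
    rw [← hc'] at hx
    obtain ⟨y, ⟨z, -, rfl⟩, rfl⟩ := hx
    exact ⟨z, rfl⟩

end CfsgLib.J3Fusion
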